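import Cfsg.Agent.H125.Hall.E6Base

/-!
# S2223, E-2: elements commuting with the frame of `E₆` are scalar on the pieces (helper343)
-/

set_option autoImplicit false
set_option linter.unusedSectionVars false
set_option linter.unusedVariables false

namespace Cfsg.Agent.H343.Hall.EComm

open Cfsg.Lie Cfsg.Agent.ChevalleyStructure.E6Min.Tables Cfsg.Agent.ChevalleyStructure.E6Min.Basic
  Cfsg.Agent.ChevalleyStructure.E6Min.Torus Cfsg.Agent.H125.Hall.E6
open scoped Matrix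

/-! ### tables -/

/-- 1 on the rows moved by the frame root `k`, else 0 -/
def pc (k : Fin 4) (x : I27) : ℤ := ind (bI k) x + ind (71 - bI k) x

/-- moves the lower vectors up -/
def rep (k : Fin 4) (x : I27) : I27 := if sg (71 - bI k) x ≠ 0 then sr (71 - bI k) x else x

/-- the highest vector of the piece -/
def RR (x : I27) : I27 := rep 0 (rep 1 (rep 2 (rep 3 x)))

theorem bI_lt (k : Fin 4) : bI k < 72 := by
  fin_cases k <;> decide

theorem pc_type : ∀ x y : I27, (∀ k, pc k x = pc k y) → (∃ k, pc k x ≠ 0) → x ≠ y →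
    ∃ k, (sg (bI k) x ≠ 0 ∧ sg (71 - bI k) y ≠ 0) ∨ (sg (71 - bI k) x ≠ 0 ∧ sg (bI k) y ≠ 0) := by
  decide +kernel

theorem RR_eq : ∀ x y : I27, (∀ k, pc k x = pc k y) → (∃ k, pc k x ≠ 0) → RR x = RR y := by
  decide +kernel

theorem mem_N : ∀ x : I27, (x = dec 0 ∨ x = dec 4 ∨ x = dec 8) ↔ ∀ k, pc k x = 0 := by
  decide +kernel

theorem pc_val : ∀ (k : Fin 4) (x : I27), pc k x = 0 ∨ pc k x = 1 := by
  decide +kernel

/-- the eigenvalue of `z_k` -/
def ev (k : Fin 4) (x : I27) : ℤ := 1 - 2 * pc k x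

theorem ev_sum : ∀ x y : I27, ev 0 x * ev 1 x = ev 0 y * ev 1 y → ev 0 x * ev 2 x = ev 0 y * ev 2 y →
    ((∀ k, pc k x = 0) ↔ ∀ k, pc k y = 0) ∧ ((∃ k, pc k x ≠ 0) → (∀ k, pc k x = pc k y) ∨
      (∀ k, pc ((![1, 0, 3, 2] : Fin 4 → Fin 4) k) x = pc k y) ∨
      (∀ k, pc ((![2, 3, 0, 1] : Fin 4 → Fin 4) k) x = pc k y)) := by
  decide +kernel

/-! ### 2 × 2 matrices -/

theorem sc {K : Type*} [Field K] {X A B : Matrix (Fin 2) (Fin 2) K} (hA : X * A = A * X) (hB : X * B = B * X)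
    (hAB : A * B ≠ B * A) : X 0 1 = 0 ∧ X 1 0 = 0 ∧ X 0 0 = X 1 1 := by
  have e : ∀ M N : Matrix (Fin 2) (Fin 2) K, M * N = N * M →
      M 0 1 * N 1 0 = N 0 1 * M 1 0 ∧ M 0 1 * (N 0 0 - N 1 1) = N 0 1 * (M 0 0 - M 1 1) ∧
      M 1 0 * (N 0 0 - N 1 1) = N 1 0 * (M 0 0 - M 1 1) := by
    intro M N h
    have h00 := congrFun (congrFun h 0) 0
    have h01 := congrFun (congrFun h 0) 1
    have h10 := congrFun (congrFun h 1) 0
    simp only [Matrix.mul_apply, Fin.sum_univ_two] at h00 h01 h10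
    refine ⟨by linear_combination h00, by linear_combination -h01, by linear_combination h10⟩
  have e' : ∀ M N : Matrix (Fin 2) (Fin 2) K, M 0 1 * N 1 0 = N 0 1 * M 1 0 →
      M 0 1 * (N 0 0 - N 1 1) = N 0 1 * (M 0 0 - M 1 1) →
      M 1 0 * (N 0 0 - N 1 1) = N 1 0 * (M 0 0 - M 1 1) → M * N = N * M := by
    intro M N h1 h2 h3
    ext i j
    fin_cases i <;> fin_cases j <;>
      simp only [Matrix.mul_apply, Fin.sum_univ_two, Fin.zero_eta, Fin.mk_one] 
    · linear_combination h1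
    · linear_combination -h2
    · linear_combination h3
    · linear_combination -h1
  obtain ⟨a1, a2, a3⟩ := e X A hA
  obtain ⟨b1, b2, b3⟩ := e X B hB
  have key : ∀ t : K, t ≠ 0 → (t = X 0 1 ∨ t = X 1 0 ∨ t = X 0 0 - X 1 1) → False := by
    intro t ht h
    apply hAB
    apply e'
    · rcases h with rfl | rfl | rfl
      · apply mul_left_cancel₀ ht
        linear_combination A 0 1 * b1 - B 0 1 * a1
      · apply mul_left_cancel₀ ht
        linear_combination A 1 0 * b1 - B 1 0 * a1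
      · apply mul_left_cancel₀ ht
        linear_combination A 1 0 * b2 - A 0 1 * b3 - (B 0 0 - B 1 1) * a1
    · rcases h with rfl | rfl | rfl
      · apply mul_left_cancel₀ ht
        linear_combination A 0 1 * b2 - B 0 1 * a2
      · apply mul_left_cancel₀ ht
        linear_combination A 0 1 * b3 + (A 0 0 - A 1 1) * b1 - B 1 0 * a2
      · apply mul_left_cancel₀ ht
        linear_combination (A 0 0 - A 1 1) * b2 - (B 0 0 - B 1 1) * a2
    · rcases h with rfl | rfl | rfl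
      · apply mul_left_cancel₀ ht
        linear_combination A 1 0 * b2 - (A 0 0 - A 1 1) * b1 - B 0 1 * a3
      · apply mul_left_cancel₀ ht
        linear_combination A 1 0 * b3 - B 1 0 * a3
      · apply mul_left_cancel₀ ht
        linear_combination (A 0 0 - A 1 1) * b3 - (B 0 0 - B 1 1) * a3
  refine ⟨?_, ?_, ?_⟩
  · by_contra h
    exact key _ h (Or.inl rfl)
  · by_contra h
    exact key _ h (Or.inr (Or.inl rfl))
  · by_contra h
    exact key _ (sub_ne_zero.2 h) (Or.inr (Or.inr rfl))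

/-! ### entries -/

section
variable {K : Type*} [Field K]

theorem Nm_col {r : ℕ} (hr : r < 72) (z y : I27) :
    Nm K r z y = if z = sr (71 - r) y then ((sg (71 - r) y : ℤ) : K) else 0 := by
  rw [Nm_apply]
  have hunit : ∀ a b : ℤ, a * b = 1 → a = b := by
    intro a b h
    rcases Int.mul_eq_one_iff_eq_one_or_neg_one.1 h with ⟨rfl, rfl⟩ | ⟨rfl, rfl⟩ <;> rfl
  by_cases h1 : sg r z = 0
  · by_cases h2 : sg (71 - r) y = 0
    · rw [h1, h2]
      simp
    · have h3 := row_opp (r := 71 - r) (by omega) h2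
      rw [h1, Int.cast_zero, ite_self]
      split_ifs with h
      · rw [← h, opp_opp hr, h1, mul_zero] at h3
        exact absurd h3.2.1 zero_ne_one
      · rfl
  · have h3 := row_opp hr h1
    by_cases hy : y = sr r z
    · subst hy
      rw [h3.1, if_pos rfl, if_pos rfl, hunit _ _ h3.2.1]
    · rw [if_neg hy]
      split_ifs with h
      · by_cases h2 : sg (71 - r) y = 0
        · rw [h2, Int.cast_zero]
        · have h4 := row_opp (r := 71 - r) (by omega) h2
          rw [← h, opp_opp hr] at h4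
          exact absurd h4.1.symm hy
      · rfl

theorem mul_Nm_apply {r : ℕ} (hr : r < 72) (M : Matrix I27 I27 K) (x y : I27) :
    (M * Nm K r) x y = M x (sr (71 - r) y) * ((sg (71 - r) y : ℤ) : K) := by
  rw [Matrix.mul_apply, Finset.sum_congr rfl fun z _ => by rw [Nm_col hr z y]]
  simp

theorem Ph_eq (k : Fin 4) (A : Matrix (Fin 2) (Fin 2) K) : Ph k A = 1 +
    (A 0 0 - 1) • (Matrix.diagonal fun x => ((ind (bI k) x : ℤ) : K)) +
    (A 1 1 - 1) • (Matrix.diagonal fun x => ((ind (71 - bI k) x : ℤ) : K)) + A 0 1 • Nm K (bI k) +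
    A 1 0 • Nm K (71 - bI k) := by
  rw [Ph, Nm_mul_opp (bI_lt k), Nm_opp_mul (bI_lt k)]

theorem mul_Ph (k : Fin 4) (A : Matrix (Fin 2) (Fin 2) K) (M : Matrix I27 I27 K) (x y : I27) :
    (M * Ph k A) x y = M x y * (1 + (A 0 0 - 1) * ((ind (bI k) y : ℤ) : K) +
      (A 1 1 - 1) * ((ind (71 - bI k) y : ℤ) : K)) +
      A 0 1 * (M x (sr (71 - bI k) y) * ((sg (71 - bI k) y : ℤ) : K)) +
      A 1 0 * (M x (sr (bI k) y) * ((sg (bI k) y : ℤ) : K)) := by
  have h := mul_Nm_apply (r := 71 - bI k) (by omega) M x y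
  rw [opp_opp (bI_lt k)] at h
  rw [Ph_eq, Matrix.mul_add, Matrix.mul_add, Matrix.mul_add, Matrix.mul_add, Matrix.mul_smul, Matrix.mul_smul,
    Matrix.mul_smul, Matrix.mul_smul, Matrix.mul_one, Matrix.add_apply, Matrix.add_apply, Matrix.add_apply,
    Matrix.add_apply, Matrix.smul_apply, Matrix.smul_apply, Matrix.smul_apply, Matrix.smul_apply,
    Matrix.mul_diagonal, Matrix.mul_diagonal, mul_Nm_apply (bI_lt k), h]
  simp only [smul_eq_mul]
  ring

theorem Ph_mul (k : Fin 4) (A : Matrix (Fin 2) (Fin 2) K) (M : Matrix I27 I27 K) (x y : I27) :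
    (Ph k A * M) x y = M x y * (1 + (A 0 0 - 1) * ((ind (bI k) x : ℤ) : K) +
      (A 1 1 - 1) * ((ind (71 - bI k) x : ℤ) : K)) +
      A 0 1 * (((sg (bI k) x : ℤ) : K) * M (sr (bI k) x) y) +
      A 1 0 * (((sg (71 - bI k) x : ℤ) : K) * M (sr (71 - bI k) x) y) := by
  rw [Ph_eq, Matrix.add_mul, Matrix.add_mul, Matrix.add_mul, Matrix.add_mul, Matrix.smul_mul, Matrix.smul_mul,
    Matrix.smul_mul, Matrix.smul_mul, Matrix.one_mul, Matrix.add_apply, Matrix.add_apply, Matrix.add_apply,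
    Matrix.add_apply, Matrix.smul_apply, Matrix.smul_apply, Matrix.smul_apply, Matrix.smul_apply,
    Matrix.diagonal_mul, Matrix.diagonal_mul, Nm_mul_apply, Nm_mul_apply]
  simp only [smul_eq_mul]
  ring

theorem mul_Ph_neg (k : Fin 4) (M : Matrix I27 I27 K) (x y : I27) :
    (M * (Ph k (-1) : Matrix I27 I27 K)) x y = M x y * ((ev k y : ℤ) : K) := by
  rw [mul_Ph]
  simp only [Matrix.neg_apply, Matrix.one_apply_eq, ev, pc]
  rw [Matrix.one_apply_ne (by decide), Matrix.one_apply_ne (by decide)]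
  push_cast
  ring

theorem Ph_neg_mul (k : Fin 4) (M : Matrix I27 I27 K) (x y : I27) :
    ((Ph k (-1) : Matrix I27 I27 K) * M) x y = M x y * ((ev k x : ℤ) : K) := by
  rw [Ph_mul]
  simp only [Matrix.neg_apply, Matrix.one_apply_eq, ev, pc]
  rw [Matrix.one_apply_ne (by decide), Matrix.one_apply_ne (by decide)]
  push_cast
  ring

theorem ev_val (k : Fin 4) (x : I27) : ev k x = 1 ∨ ev k x = -1 := by
  rcases pc_val k x with h | h <;> rw [ev, h]
  · left; norm_num
  · right; norm_num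

/-- entries between different eigenspaces -/
theorem eq_of_ev (h2 : (2 : K) ≠ 0) {a b : ℤ} (ha : a = 1 ∨ a = -1) (hb : b = 1 ∨ b = -1) {m : K} (hm : m ≠ 0)
    (h : m * ((a : ℤ) : K) = m * ((b : ℤ) : K)) : a = b := by
  have h1 := mul_left_cancel₀ hm h
  rcases ha with rfl | rfl <;> rcases hb with rfl | rfl
  · rfl
  · exfalso
    apply h2
    push_cast at h1
    linear_combination h1
  · exfalso
    apply h2
    push_cast at h1
    linear_combination -h1
  · rfl

theorem pc_of_ev {k l : Fin 4} {x y : I27} (h : ev k x = ev l y) : pc k x = pc l y := by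
  unfold ev at h
  omega

theorem pc_eq (h2 : (2 : K) ≠ 0) {M : Matrix I27 I27 K} {s : Fin 4 → Fin 4}
    (h : ∀ k, M * Ph k (-1) = Ph (s k) (-1) * M) {x y : I27} (hxy : M x y ≠ 0) (k : Fin 4) :
    pc (s k) x = pc k y := by
  have h1 := congrFun (congrFun (h k) x) y
  rw [mul_Ph_neg, Ph_neg_mul] at h1
  exact (pc_of_ev (eq_of_ev h2 (ev_val _ _) (ev_val _ _) hxy h1)).symm

/-- the blocks of a matrix commuting with `Ph k A`, `Ph k B` -/
theorem blk {k : Fin 4} {A B : Matrix (Fin 2) (Fin 2) K} {M : Matrix I27 I27 K} (hA : M * Ph k A = Ph k A * M)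
    (hB : M * Ph k B = Ph k B * M) (hAB : A * B ≠ B * A) {x y : I27} (hx : sg (bI k) x ≠ 0) (hy : sg (bI k) y ≠ 0) :
    M x (sr (bI k) y) = 0 ∧ M (sr (bI k) x) y = 0 ∧
      M x y = ((sg (bI k) x : ℤ) : K) * ((sg (bI k) y : ℤ) : K) * M (sr (bI k) x) (sr (bI k) y) := by
  have hunit : ∀ a b : ℤ, a * b = 1 → a = b := by
    intro a b h
    rcases Int.mul_eq_one_iff_eq_one_or_neg_one.1 h with ⟨rfl, rfl⟩ | ⟨rfl, rfl⟩ <;> rfl
  have row : ∀ x, sg (bI k) x ≠ 0 → sr (71 - bI k) (sr (bI k) x) = x ∧ sg (71 - bI k) (sr (bI k) x) = sg (bI k) x ∧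
      sg (71 - bI k) x = 0 ∧ sg (bI k) (sr (bI k) x) = 0 ∧ ind (bI k) x = 1 ∧ ind (71 - bI k) x = 0 ∧
      ind (bI k) (sr (bI k) x) = 0 ∧ ind (71 - bI k) (sr (bI k) x) = 1 ∧
      ((sg (bI k) x : ℤ) : K) * ((sg (bI k) x : ℤ) : K) = 1 := by
    intro x hx
    obtain ⟨h1, h2, h3⟩ := row_opp (bI_lt k) hx
    have h4 := hunit _ _ h2
    have h5 : sg (71 - bI k) (sr (bI k) x) ≠ 0 := h4 ▸ hx
    have h6 : sg (bI k) (sr (bI k) x) = 0 := by
      have h7 := (row_opp (r := 71 - bI k) (by omega) h5).2.2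
      rwa [opp_opp (bI_lt k)] at h7
    refine ⟨h1, h4.symm, h3, h6, ind_of_ne hx, ind_of_eq h3, ind_of_eq h6, ind_of_ne h5, ?_⟩
    rw [← Int.cast_mul]
    nth_rw 2 [h4]
    rw [h2, Int.cast_one]
  obtain ⟨x1, x2, x3, x4, x5, x6, x7, x8, x9⟩ := row x hx
  obtain ⟨y1, y2, y3, y4, y5, y6, y7, y8, y9⟩ := row y hy
  set σ : K := ((sg (bI k) x : ℤ) : K) with hσ
  set τ : K := ((sg (bI k) y : ℤ) : K) with hτ
  have key : ∀ A : Matrix (Fin 2) (Fin 2) K, M * Ph k A = Ph k A * M →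
      !![M x y, τ * M x (sr (bI k) y); σ * M (sr (bI k) x) y, σ * τ * M (sr (bI k) x) (sr (bI k) y)] * A =
      A * !![M x y, τ * M x (sr (bI k) y); σ * M (sr (bI k) x) y, σ * τ * M (sr (bI k) x) (sr (bI k) y)] := by
    intro A h
    have e1 := congrFun (congrFun h x) y
    have e2 := congrFun (congrFun h x) (sr (bI k) y)
    have e3 := congrFun (congrFun h (sr (bI k) x)) y
    have e4 := congrFun (congrFun h (sr (bI k) x)) (sr (bI k) y)
    rw [mul_Ph, Ph_mul] at e1 e2 e3 e4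
    simp only [x1, x2, x3, x4, x5, x6, x7, x8, y1, y2, y3, y4, y5, y6, y7, y8, ← hσ, ← hτ, Int.cast_zero,
      Int.cast_one, mul_zero, mul_one, zero_mul, add_zero] at e1 e2 e3 e4
    ext i j
    fin_cases i <;> fin_cases j <;>
      simp [Matrix.mul_apply, Fin.sum_univ_two]
    · linear_combination e1
    · linear_combination τ * e2 - A 0 1 * M x y * y9
    · linear_combination σ * e3 + A 1 0 * M x y * x9
    · linear_combination σ * τ * e4 - σ * A 0 1 * M (sr (bI k) x) y * y9 +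
        τ * A 1 0 * M x (sr (bI k) y) * x9
  obtain ⟨h1, h2, h3⟩ := sc (key A hA) (key B hB) hAB
  have hσ0 : σ ≠ 0 := fun h => by rw [h, zero_mul] at x9; exact zero_ne_one x9
  have hτ0 : τ ≠ 0 := fun h => by rw [h, zero_mul] at y9; exact zero_ne_one y9
  refine ⟨?_, ?_, ?_⟩
  · have h4 : τ * M x (sr (bI k) y) = 0 := h1
    exact (mul_eq_zero.1 h4).resolve_left hτ0
  · have h4 : σ * M (sr (bI k) x) y = 0 := h2
    exact (mul_eq_zero.1 h4).resolve_left hσ0
  · exact h3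

end

/-! ### the theorems -/

section
variable {K : Type*} [Field K]

/-- the three coordinates fixed by the frame -/
def NN (x : I27) : Prop := ∀ k, pc k x = 0

theorem not_NN {x : I27} : ¬ NN x ↔ ∃ k, pc k x ≠ 0 := by
  unfold NN
  push Not
  rfl

theorem NN_iff {x : I27} : x ∈ ({dec 0, dec 4, dec 8} : Set I27) ↔ NN x := by
  rw [Set.mem_insert_iff, Set.mem_insert_iff, Set.mem_singleton_iff]
  exact mem_N x

/-- `g` is scalar on the pieces -/
theorem scal (h2 : (2 : K) ≠ 0) {g : Matrix I27 I27 K}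
    (hgA : ∀ k : Fin 4, ∃ A B : Matrix (Fin 2) (Fin 2) K, A * B ≠ B * A ∧ g * Ph k A = Ph k A * g ∧
      g * Ph k B = Ph k B * g) (hgz : ∀ k : Fin 4, g * Ph k (-1) = Ph k (-1) * g) :
    (∀ x y, ¬ NN x → g x y = if x = y then g (RR x) (RR x) else 0) ∧
      ∀ x y, ¬ NN y → g x y = if x = y then g (RR y) (RR y) else 0 := by
  have hpc : ∀ x y, g x y ≠ 0 → ∀ k, pc k x = pc k y := fun x y hxy k => pc_eq (s := id) h2 hgz hxy k
  have opp : ∀ (k : Fin 4) (y : I27), sg (71 - bI k) y ≠ 0 →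
      sg (bI k) (sr (71 - bI k) y) ≠ 0 ∧ sr (bI k) (sr (71 - bI k) y) = y := by
    intro k y hy
    obtain ⟨h1, h2, -⟩ := row_opp (r := 71 - bI k) (by omega) hy
    rw [opp_opp (bI_lt k)] at h1 h2
    exact ⟨fun h => by rw [h, mul_zero] at h2; exact zero_ne_one h2, h1⟩
  have off : ∀ x y, ¬ NN x → x ≠ y → g x y = 0 := by
    intro x y hx hxy
    by_contra hne
    obtain ⟨k, h⟩ := pc_type x y (hpc x y hne) (not_NN.1 hx) hxy
    obtain ⟨A, B, hAB, hA, hB⟩ := hgA k
    rcases h with ⟨h3, h4⟩ | ⟨h3, h4⟩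
    · obtain ⟨h5, h6⟩ := opp k y h4
      have h7 := (blk hA hB hAB h3 h5).1
      rw [h6] at h7
      exact hne h7
    · obtain ⟨h5, h6⟩ := opp k x h3
      have h7 := (blk hA hB hAB h5 h4).2.1
      rw [h6] at h7
      exact hne h7
  have diag : ∀ (k : Fin 4) (x : I27), g x x = g (rep k x) (rep k x) := by
    intro k x
    unfold rep
    split_ifs with h
    · obtain ⟨A, B, hAB, hA, hB⟩ := hgA k
      obtain ⟨h5, h6⟩ := opp k x h
      have h7 := (blk hA hB hAB h5 h5).2.2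
      rw [h6] at h7
      rw [h7]
      have h8 : ((sg (bI k) (sr (71 - bI k) x) : ℤ) : K) * ((sg (bI k) (sr (71 - bI k) x) : ℤ) : K) = 1 := by
        rw [← Int.cast_mul]
        have h9 := (row_opp (bI_lt k) h5).2.1
        rcases Int.mul_eq_one_iff_eq_one_or_neg_one.1 h9 with ⟨h, -⟩ | ⟨h, -⟩ <;> rw [h] <;> simp
      rw [h8, one_mul]
    · rfl
  have hRR : ∀ x, g x x = g (RR x) (RR x) := by
    intro x
    rw [RR, ← diag 0, ← diag 1, ← diag 2, ← diag 3]
  constructor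
  · intro x y hx
    split_ifs with h
    · subst h
      exact hRR x
    · exact off x y hx h
  · intro x y hy
    split_ifs with h
    · subst h
      exact hRR x
    · by_contra hne
      have h3 := hpc x y hne
      refine hne (off x y (fun hx => hy fun k => ?_) h)
      rw [← h3 k]
      exact hx k

/-- the products `z₀ z₁`, `z₀ z₂` -/
theorem mul_D (l : Fin 4) (M : Matrix I27 I27 K) (x y : I27) :
    (M * ((Ph 0 (-1) : Matrix I27 I27 K) * (Ph l (-1) : Matrix I27 I27 K))) x y =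
      M x y * ((ev 0 y * ev l y : ℤ) : K) := by
  rw [← Matrix.mul_assoc, mul_Ph_neg, mul_Ph_neg]
  push_cast
  ring

theorem D_mul (l : Fin 4) (M : Matrix I27 I27 K) (x y : I27) :
    (((Ph 0 (-1) : Matrix I27 I27 K) * (Ph l (-1) : Matrix I27 I27 K)) * M) x y =
      M x y * ((ev 0 x * ev l x : ℤ) : K) := by
  rw [Matrix.mul_assoc, Ph_neg_mul, Ph_neg_mul]
  push_cast
  ring

theorem ev_mul_val (k l : Fin 4) (x : I27) : ev k x * ev l x = 1 ∨ ev k x * ev l x = -1 := by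
  rcases ev_val k x with h | h <;> rcases ev_val l x with h' | h' <;> rw [h, h'] <;> simp

/-- `h` commutes with `z₀ z₁` and `z₀ z₂` -/
def CD (M : Matrix I27 I27 K) : Prop :=
  ∀ l : Fin 4, l = 1 ∨ l = 2 → Commute M ((Ph 0 (-1) : Matrix I27 I27 K) * (Ph l (-1) : Matrix I27 I27 K))

theorem CD.ev_eq (h2 : (2 : K) ≠ 0) {M : Matrix I27 I27 K} (h : CD M) {x y : I27} (hxy : M x y ≠ 0) :
    ev 0 x * ev 1 x = ev 0 y * ev 1 y ∧ ev 0 x * ev 2 x = ev 0 y * ev 2 y := by
  have key : ∀ l : Fin 4, l = 1 ∨ l = 2 → ev 0 x * ev l x = ev 0 y * ev l y := by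
    intro l hl
    have h1 := congrFun (congrFun (h l hl).eq x) y
    rw [mul_D, D_mul] at h1
    exact (eq_of_ev h2 (ev_mul_val _ _ _) (ev_mul_val _ _ _) hxy h1).symm
  exact ⟨key 1 (Or.inl rfl), key 2 (Or.inr rfl)⟩

theorem CD.NN_iff (h2 : (2 : K) ≠ 0) {M : Matrix I27 I27 K} (h : CD M) {x y : I27} (hxy : M x y ≠ 0) :
    NN x ↔ NN y := by
  obtain ⟨h3, h4⟩ := h.ev_eq h2 hxy
  exact (ev_sum x y h3 h4).1

theorem CD.mul {M N : Matrix I27 I27 K} (h : CD M) (h' : CD N) : CD (M * N) := fun l hl => (h l hl).mul_left (h' l hl)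

theorem CD.inv {g : GL I27 K} (h : CD (g : Matrix I27 I27 K)) : CD ((g⁻¹ : GL I27 K) : Matrix I27 I27 K) :=
  fun l hl => (h l hl).units_inv_left

theorem CD.of_comm {M : Matrix I27 I27 K} (h : ∀ k : Fin 4, M * Ph k (-1) = Ph k (-1) * M) : CD M := fun l hl => by
  have h0 : Commute M (Ph 0 (-1)) := h 0
  have h1 : Commute M (Ph l (-1)) := h l
  exact h0.mul_right h1

/-- E-1 (helper757) -/
def EC2 (K : Type*) [Field K] : Prop := ∀ {z : GL I27 K}, z ∈ Zgrp K →
  (∀ x y : I27, y ∉ ({dec 0, dec 4, dec 8} : Set I27) → (z : Matrix I27 I27 K) x y = if x = y then 1 else 0) →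
  (∀ x y : I27, y ∈ ({dec 0, dec 4, dec 8} : Set I27) → x ∉ ({dec 0, dec 4, dec 8} : Set I27) →
      (z : Matrix I27 I27 K) x y = 0) → z = 1

theorem fin_step (hE : EC2 K) (h2 : (2 : K) ≠ 0) {g c : GL I27 K} (hg : g ∈ Zgrp K) (hc : c ∈ Zgrp K) (lam : I27 → K)
    (hl : ∀ x y, ¬ NN x → (g : Matrix I27 I27 K) x y = if x = y then lam x else 0)
    (hl' : ∀ x y, ¬ NN y → (g : Matrix I27 I27 K) x y = if x = y then lam y else 0)
    (hcl : ∀ x y, ¬ NN x → ¬ NN y → (c : Matrix I27 I27 K) x y ≠ 0 → lam x = lam y)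
    (hgD : CD (g : Matrix I27 I27 K)) (hcD : CD (c : Matrix I27 I27 K)) : g * c = c * g := by
  have hT : ∀ x y, ¬ NN y → ((g : Matrix I27 I27 K) * (c : Matrix I27 I27 K)) x y =
      ((c : Matrix I27 I27 K) * (g : Matrix I27 I27 K)) x y := by
    intro x y hy
    have e1 : ((c : Matrix I27 I27 K) * (g : Matrix I27 I27 K)) x y = (c : Matrix I27 I27 K) x y * lam y := by
      rw [Matrix.mul_apply, Finset.sum_congr rfl fun w _ => by rw [hl' w y hy]]
      simp
    rw [e1]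
    by_cases hx : NN x
    · have e2 : (c : Matrix I27 I27 K) x y = 0 := by
        by_contra hne
        exact hy ((hcD.NN_iff h2 hne).1 hx)
      rw [e2, zero_mul, Matrix.mul_apply]
      refine Finset.sum_eq_zero fun w _ => ?_
      by_cases hw : NN w
      · have e3 : (c : Matrix I27 I27 K) w y = 0 := by
          by_contra hne
          exact hy ((hcD.NN_iff h2 hne).1 hw)
        rw [e3, mul_zero]
      · have hxw : x ≠ w := by
          rintro rfl
          exact hw hx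
        rw [hl' x w hw, if_neg hxw, zero_mul]
    · have e2 : ((g : Matrix I27 I27 K) * (c : Matrix I27 I27 K)) x y = lam x * (c : Matrix I27 I27 K) x y := by
        rw [Matrix.mul_apply, Finset.sum_congr rfl fun w _ => by rw [hl x w hx]]
        simp
      rw [e2]
      by_cases h : (c : Matrix I27 I27 K) x y = 0
      · rw [h, mul_zero, zero_mul]
      · rw [hcl x y hx hy h, mul_comm]
  have hz : g * c * (c * g)⁻¹ = 1 := by
    have hW : CD (((c * g)⁻¹ : GL I27 K) : Matrix I27 I27 K) := CD.inv (by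
      rw [Units.val_mul]
      exact hcD.mul hgD)
    apply hE (mul_mem (mul_mem hg hc) (inv_mem (mul_mem hc hg)))
    · intro x y hy
      rw [NN_iff] at hy
      rw [Units.val_mul, Units.val_mul, Matrix.mul_apply]
      have e1 : ∑ w, ((g : Matrix I27 I27 K) * (c : Matrix I27 I27 K)) x w *
          (((c * g)⁻¹ : GL I27 K) : Matrix I27 I27 K) w y =
          ∑ w, ((c : Matrix I27 I27 K) * (g : Matrix I27 I27 K)) x w *
          (((c * g)⁻¹ : GL I27 K) : Matrix I27 I27 K) w y := by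
        refine Finset.sum_congr rfl fun w _ => ?_
        by_cases hw : NN w
        · have e3 : (((c * g)⁻¹ : GL I27 K) : Matrix I27 I27 K) w y = 0 := by
            by_contra hne
            exact hy ((hW.NN_iff h2 hne).1 hw)
          rw [e3, mul_zero, mul_zero]
        · rw [hT x w hw]
      rw [e1, ← Matrix.mul_apply, ← Units.val_mul, ← Units.val_mul, mul_inv_cancel, Units.val_one,
        Matrix.one_apply]
    · intro x y hy hx
      rw [NN_iff] at hy hx
      by_contra hne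
      have hzD : CD ((g * c * (c * g)⁻¹ : GL I27 K) : Matrix I27 I27 K) := by
        rw [Units.val_mul, Units.val_mul]
        exact (hgD.mul hcD).mul hW
      exact hx ((hzD.NN_iff h2 hne).2 hy)
  exact mul_inv_eq_one.1 hz

theorem comm_of_frame_of (hE : EC2 K) (h2 : (2 : K) ≠ 0) {g c : GL I27 K} (hg : g ∈ Zgrp K) (hc : c ∈ Zgrp K)
    (hgA : ∀ k : Fin 4, ∃ A B : Matrix (Fin 2) (Fin 2) K, A.det = 1 ∧ B.det = 1 ∧ A * B ≠ B * A ∧
      (g : Matrix I27 I27 K) * Ph k A = Ph k A * (g : Matrix I27 I27 K) ∧ (g : Matrix I27 I27 K) * Ph k B = Ph k B * (g : Matrix I27 I27 K))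
    (hgz : ∀ k : Fin 4, (g : Matrix I27 I27 K) * Ph k (-1) = Ph k (-1) * (g : Matrix I27 I27 K))
    (hcz : ∀ k : Fin 4, (c : Matrix I27 I27 K) * Ph k (-1) = Ph k (-1) * (c : Matrix I27 I27 K)) : g * c = c * g := by
  obtain ⟨h3, h4⟩ := scal h2 (fun k => by
    obtain ⟨A, B, -, -, h5, h6, h7⟩ := hgA k
    exact ⟨A, B, h5, h6, h7⟩) hgz
  refine fin_step hE h2 hg hc (fun x => (g : Matrix I27 I27 K) (RR x) (RR x)) h3 h4 ?_ (CD.of_comm hgz)
    (CD.of_comm hcz)
  intro x y hx hy hxy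
  have h5 : RR x = RR y := RR_eq x y (fun k => pc_eq (s := id) h2 hcz hxy k) (not_NN.1 hx)
  show (g : Matrix I27 I27 K) (RR x) (RR x) = (g : Matrix I27 I27 K) (RR y) (RR y)
  rw [h5]

theorem comm_of_frame'_of (hE : EC2 K) (h2 : (2 : K) ≠ 0) {g c v w : GL I27 K} (hg : g ∈ Zgrp K) (hc : c ∈ Zgrp K)
    (hgA : ∀ k : Fin 4, ∃ A B : Matrix (Fin 2) (Fin 2) K, A.det = 1 ∧ B.det = 1 ∧ A * B ≠ B * A ∧
      (g : Matrix I27 I27 K) * Ph k A = Ph k A * (g : Matrix I27 I27 K) ∧ (g : Matrix I27 I27 K) * Ph k B = Ph k B * (g : Matrix I27 I27 K))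
    (hgz : ∀ k : Fin 4, (g : Matrix I27 I27 K) * Ph k (-1) = Ph k (-1) * (g : Matrix I27 I27 K))
    (hv : g * v = v * g) (hw : g * w = w * g)
    (hv1 : ∀ k : Fin 4, (v : Matrix I27 I27 K) * Ph k (-1) = Ph ((![1, 0, 3, 2] : Fin 4 → Fin 4) k) (-1) * (v : Matrix I27 I27 K))
    (hw1 : ∀ k : Fin 4, (w : Matrix I27 I27 K) * Ph k (-1) = Ph ((![2, 3, 0, 1] : Fin 4 → Fin 4) k) (-1) * (w : Matrix I27 I27 K))
    (hc1 : (c : Matrix I27 I27 K) * (Ph 0 (-1) * Ph 1 (-1)) = Ph 0 (-1) * Ph 1 (-1) * (c : Matrix I27 I27 K))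
    (hc2 : (c : Matrix I27 I27 K) * (Ph 0 (-1) * Ph 2 (-1)) = Ph 0 (-1) * Ph 2 (-1) * (c : Matrix I27 I27 K)) : g * c = c * g := by
  obtain ⟨h3, h4⟩ := scal h2 (fun k => by
    obtain ⟨A, B, -, -, h5, h6, h7⟩ := hgA k
    exact ⟨A, B, h5, h6, h7⟩) hgz
  have hcD : CD (c : Matrix I27 I27 K) := by
    rintro l (rfl | rfl)
    · exact hc1
    · exact hc2
  -- transport by `v`, `w`
  have tr : ∀ (s : Fin 4 → Fin 4), (∀ k, s (s k) = k) → ∀ v : GL I27 K, g * v = v * g →
      (∀ k : Fin 4, (v : Matrix I27 I27 K) * Ph k (-1) = Ph (s k) (-1) * (v : Matrix I27 I27 K)) →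
      ∀ x y, ¬ NN y → (∀ k, pc (s k) x = pc k y) →
      (g : Matrix I27 I27 K) (RR x) (RR x) = (g : Matrix I27 I27 K) (RR y) (RR y) := by
    intro s hs v hv hv1 x y hy hxy
    obtain ⟨x', hx'⟩ : ∃ x', (v : Matrix I27 I27 K) x' y ≠ 0 := by
      by_contra hcon
      push Not at hcon
      have h5 : ((v⁻¹ : GL I27 K) : Matrix I27 I27 K) * (v : Matrix I27 I27 K) = 1 := by
        rw [← Units.val_mul, inv_mul_cancel, Units.val_one]
      have h6 := congrFun (congrFun h5 y) y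
      rw [Matrix.mul_apply, Matrix.one_apply_eq, Finset.sum_eq_zero fun w _ => by rw [hcon w, mul_zero]] at h6
      exact zero_ne_one h6
    have h5 : ∀ k, pc (s k) x' = pc k y := fun k => pc_eq h2 hv1 hx' k
    have h6 : ∀ k, pc k x = pc k x' := fun k => by
      have h7 := hxy (s k)
      have h8 := h5 (s k)
      rw [hs] at h7 h8
      rw [h7, h8]
    have hx'N : ¬ NN x' := by
      intro h
      apply hy
      intro k
      rw [← h5 k]
      exact h _
    have hxN : ¬ NN x := by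
      intro h
      apply hx'N
      intro k
      rw [← h6 k]
      exact h _
    rw [RR_eq x x' h6 (not_NN.1 hxN)]
    have h7 := congrArg (fun M : GL I27 K => (M : Matrix I27 I27 K) x' y) hv
    simp only [Units.val_mul] at h7
    rw [Matrix.mul_apply, Matrix.mul_apply, Finset.sum_congr rfl fun w _ => by rw [h3 x' w hx'N],
      Finset.sum_congr (s₁ := Finset.univ) (f := fun w => (v : Matrix I27 I27 K) x' w * (g : Matrix I27 I27 K) w y) rfl
        fun w _ => by rw [h4 w y hy]] at h7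
    simp only [ite_mul, zero_mul, Finset.sum_ite_eq, Finset.mem_univ, if_true, mul_ite, mul_zero,
      Finset.sum_ite_eq'] at h7
    apply mul_right_cancel₀ hx'
    rw [h7, mul_comm]
  refine fin_step hE h2 hg hc (fun x => (g : Matrix I27 I27 K) (RR x) (RR x)) h3 h4 ?_ (CD.of_comm hgz) hcD
  intro x y hx hy hxy
  show (g : Matrix I27 I27 K) (RR x) (RR x) = (g : Matrix I27 I27 K) (RR y) (RR y)
  obtain ⟨h5, h6⟩ := hcD.ev_eq h2 hxy
  rcases (ev_sum x y h5 h6).2 (not_NN.1 hx) with h | h | h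
  · rw [RR_eq x y h (not_NN.1 hx)]
  · exact tr _ (by decide) v hv hv1 x y hy h
  · exact tr _ (by decide) w hw hw1 x y hy h

end

end Cfsg.Agent.H343.Hall.EComm
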